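import Cfsg.Agent.H196.AltInd
import Cfsg.Agent.H196.AltLift

/-!
# Alternating sections of groups whose non-central elements of `p`-power order have solvable centralizers
-/

set_option autoImplicit false

universe u

namespace Cfsg.Agent.H196.AltMain

open Subgroup Equiv Cfsg.Agent.H196.GA Cfsg.Agent.H196.AltLift Cfsg.Agent.H196.AltInd

section

variable {Q : Type u} [Group Q] (K : Subgroup Q)

/-- the elements of `Z(K)` of order dividing `p` -/
def Om (p : ℕ) : Subgroup Q where
  carrier := {w | w ∈ K ∧ (∀ k ∈ K, k * w = w * k) ∧ w ^ p = 1}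
  mul_mem' := fun {a b} ha hb => ⟨K.mul_mem ha.1 hb.1, fun k hk => by
    rw [← mul_assoc, ha.2.1 k hk, mul_assoc, hb.2.1 k hk, mul_assoc], by
    rw [(show Commute a b from hb.2.1 a ha.1).mul_pow, ha.2.2, hb.2.2, one_mul]⟩
  one_mem' := ⟨K.one_mem, fun k _ => by simp, one_pow _⟩
  inv_mem' := fun {a} ha => ⟨K.inv_mem ha.1, fun k hk => by
    rw [eq_inv_mul_iff_mul_eq, ← mul_assoc, ← ha.2.1 k hk, mul_inv_cancel_right], by
    rw [inv_pow, ha.2.2, inv_one]⟩

theorem om_normal [K.Normal] (p : ℕ) : (Om K p).Normal := by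
  refine ⟨fun w hw g => ⟨Normal.conj_mem inferInstance w hw.1 g, fun k hk => ?_, ?_⟩⟩
  · have h1 := hw.2.1 (g⁻¹ * k * g) (by
      have := Normal.conj_mem (inferInstance : K.Normal) k hk g⁻¹
      rwa [inv_inv] at this)
    calc k * (g * w * g⁻¹) = g * ((g⁻¹ * k * g) * w) * g⁻¹ := by group
      _ = g * (w * (g⁻¹ * k * g)) * g⁻¹ := by rw [h1]
      _ = g * w * g⁻¹ * k := by group
  · rw [conj_pow, hw.2.2, mul_one, mul_inv_cancel]

/-- `Om` is commutative -/
@[instance_reducible] def omComm (p : ℕ) : CommGroup (Om K p) :=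
  { (inferInstance : Group (Om K p)) with
    mul_comm := fun a b => Subtype.ext (b.2.2.1 a a.2.1) }

end

/-- The `p`-part of a lift of an element of order `p`. -/
theorem exists_pow_lift {H Q : Type*} [Group H] [Finite H] [Group Q] (π : H →* Q) {p : ℕ} (hp : p.Prime) (v : H)
    (hv : (π v) ^ p = 1) : ∃ j : ℕ, π (v ^ j) = π v ∧ ∃ k, orderOf (v ^ j) = p ^ k := by
  have hn : orderOf v ≠ 0 := (orderOf_pos v).ne'
  obtain ⟨a, m', hm', hnm⟩ := Nat.exists_eq_pow_mul_and_not_dvd hn p hp.one_lt.ne'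
  have hcop : m'.Coprime p := ((Nat.Prime.coprime_iff_not_dvd hp).2 hm').symm
  obtain ⟨j, hj1, hj2⟩ := Nat.chineseRemainder hcop 0 1
  refine ⟨j, ?_, ?_⟩
  · rw [map_pow]
    have h1 : orderOf (π v) ∣ p := orderOf_dvd_of_pow_eq_one hv
    have h2 : j ≡ 1 [MOD orderOf (π v)] := hj2.of_dvd h1
    have := (pow_eq_pow_iff_modEq (x := π v)).2 h2
    rw [this, pow_one]
  · have h1 : m' ∣ j := (Nat.modEq_zero_iff_dvd).1 hj1
    have h2 : (v ^ j) ^ p ^ a = 1 := by
      rw [← pow_mul]
      apply orderOf_dvd_iff_pow_eq_one.1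
      rw [hnm, mul_comm]
      exact Nat.mul_dvd_mul h1 dvd_rfl
    obtain ⟨k, -, hk⟩ := (Nat.dvd_prime_pow hp).1 (orderOf_dvd_of_pow_eq_one h2)
    exact ⟨k, hk⟩

/-- A nilpotent normal subgroup with a nontrivial element of `p`-power order has central elements of order `p`. -/
theorem exists_om {Q : Type u} [Group Q] [Finite Q] (K : Subgroup Q) (hK : Group.IsNilpotent K) {p : ℕ}
    [hp : Fact p.Prime] {k : Q} (hk : k ∈ K) (hk1 : k ≠ 1) (hkp : ∃ j, orderOf k = p ^ j) :
    ∃ w ∈ Om K p, w ≠ 1 := by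
  obtain ⟨P⟩ : Nonempty (Sylow p K) := inferInstance
  have hPn : (P : Subgroup K).Normal :=
    (((Group.isNilpotent_of_finite_tfae (G := K)).out 0 3 :
      Group.IsNilpotent K ↔ ∀ (p : ℕ) (_hp : Fact p.Prime) (P : Sylow p K), (P : Subgroup K).Normal)).1 hK p
      inferInstance P
  have hPne : (P : Subgroup K) ≠ ⊥ := by
    intro h
    obtain ⟨j, hj⟩ := hkp
    have h1 : IsPGroup p (zpowers (⟨k, hk⟩ : K)) := IsPGroup.of_card (n := j) (by
      rw [Nat.card_zpowers, orderOf_mk, hj])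
    obtain ⟨P', hP'⟩ := h1.exists_le_sylow
    have h2 : Nat.card P' = Nat.card P := Sylow.card_eq_multiplicity P' |>.trans (Sylow.card_eq_multiplicity P).symm
    have h3 : Nat.card (P : Subgroup K) = 1 := by rw [h, card_bot]
    have h4 : (P' : Subgroup K) = ⊥ := card_eq_one.1 (h2.trans h3)
    have h5 : (⟨k, hk⟩ : K) ∈ (P' : Subgroup K) := hP' (mem_zpowers _)
    rw [h4, mem_bot] at h5
    exact hk1 (congrArg Subtype.val h5)
  have hne := Cfsg.Agent.Lib.NormalAbelian.normal_inf_center_ne_bot (P : Subgroup K) hPne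
  obtain ⟨⟨z, hz⟩, hz0⟩ := ne_bot_iff_exists_ne_one.1 hne
  have hz1 : z ≠ 1 := fun h => hz0 (Subtype.ext h)
  obtain ⟨j, hj⟩ := IsPGroup.iff_orderOf.1 P.2 ⟨z, hz.1⟩
  rw [orderOf_mk] at hj
  have hj0 : j ≠ 0 := by
    rintro rfl
    rw [pow_zero, orderOf_eq_one_iff] at hj
    exact hz1 hj
  obtain ⟨i, rfl⟩ := Nat.exists_eq_succ_of_ne_zero hj0
  have ho : orderOf (z ^ p ^ i) = p := by
    rw [orderOf_pow_of_dvd (pow_ne_zero _ hp.out.ne_zero) (by rw [hj]; exact pow_dvd_pow _ (Nat.le_succ i)), hj,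
      Nat.succ_eq_add_one, pow_succ, Nat.mul_div_cancel_left _ (pow_pos hp.out.pos i)]
  have hzc : z ^ p ^ i ∈ center K := (center K).pow_mem hz.2 _
  refine ⟨((z ^ p ^ i : K) : Q), ⟨(z ^ p ^ i : K).2, fun x hx => ?_, ?_⟩, fun h => ?_⟩
  · have := mem_center_iff.1 hzc ⟨x, hx⟩
    exact congrArg Subtype.val this
  · have h1 : (z ^ p ^ i) ^ p = 1 := by
      nth_rw 2 [← ho]
      exact pow_orderOf_eq_one _
    exact congrArg Subtype.val h1
  · have h1 : z ^ p ^ i = 1 := Subtype.ext h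
    rw [h1, orderOf_one] at ho
    exact hp.out.one_lt.ne ho

/-- The inductive statement. -/
theorem main {m p : ℕ} [hp : Fact p.Prime]
    (hmod : ∀ (V : Type u) [AddCommGroup V] [DistribMulAction (Perm (Fin m)) V], (∀ v : V, p • v = 0) →
      NF m V → ∀ v : V, v = 0)
    (c : alternatingGroup (Fin m)) (hc : c ∉ center (alternatingGroup (Fin m))) (hcp : ∃ k, orderOf c = p ^ k)
    (D : Subgroup (alternatingGroup (Fin m))) (hD : ∀ d ∈ D, d * c = c * d) (hDs : ¬ Group.IsSolvable D) :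
    ∀ (n : ℕ) (H : Type u) [Group H] [Finite H] (_ : Nat.card H = n) (Z₀ : Subgroup H) (_ : Z₀ ≤ center H)
      (_ : ∀ x : H, (∃ k, orderOf x = p ^ k) → x ∉ Z₀ → Group.IsSolvable (centralizer ({x} : Set H)))
      (φ : H →* alternatingGroup (Fin m)) (_ : Function.Surjective φ), False := by
  intro n
  induction n using Nat.strong_induction_on with
  | _ n ih =>
  intro H _ _ hn Z₀ hZ₀ h φ hφ
  by_cases hcase : ∀ x ∈ φ.ker, (∃ k, orderOf x = p ^ k) → x ∈ center H
  · obtain ⟨y, hy, hyp, hys⟩ := lift_central (c := c) (D := D) hφ hcase hcp hD hDs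
    refine hys (h y hyp fun hyZ => hc ?_)
    rw [← hy, mem_center_iff]
    intro g
    obtain ⟨x, rfl⟩ := hφ g
    rw [← map_mul, ← map_mul, mem_center_iff.1 (hZ₀ hyZ) x]
  · push Not at hcase
    obtain ⟨k₀, hk₀, hk₀p, hk₀c⟩ := hcase
    have hk₀Z : k₀ ∉ Z₀ := fun h' => hk₀c (hZ₀ h')
    -- the kernel is contained in the Frattini subgroup
    have hfr : φ.ker ≤ frattini H := by
      unfold frattini Order.radical
      refine le_iInf₂ fun M hM => ?_
      by_contra hKM
      have htop : M ⊔ φ.ker = ⊤ := hM.2 _ (left_lt_sup.2 hKM)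
      have hlt : Nat.card M < n := by
        rw [← hn]
        exact lt_of_le_of_ne (Subgroup.card_le_card_group M) fun h' => hM.1 (Subgroup.card_eq_iff_eq_top M |>.1 h')
      refine ih _ hlt M rfl (Z₀.subgroupOf M) ?_ ?_ (φ.comp M.subtype) ?_
      · intro z hz
        rw [mem_center_iff]
        exact fun g => Subtype.ext (mem_center_iff.1 (hZ₀ hz) g)
      · rintro x ⟨k, hk⟩ hx
        have h1 := h x ⟨k, by rw [← hk, orderOf_coe]⟩ hx
        refine Group.isSolvable_of_isSolvable_injective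
          (f := (M.subtype.comp (centralizer ({x} : Set M)).subtype).codRestrict
            (centralizer ({(x : H)} : Set H)) fun z => ?_) ?_
        · rw [mem_centralizer_singleton_iff]
          exact congrArg Subtype.val (mem_centralizer_singleton_iff.1 z.2)
        · intro a b hab
          have hab' := congrArg Subtype.val hab
          exact Subtype.ext (Subtype.ext hab')
      · intro s
        obtain ⟨x, rfl⟩ := hφ s
        have hx : x ∈ M ⊔ φ.ker := htop ▸ mem_top x
        obtain ⟨a, ha, b, hb, rfl⟩ := (mem_sup_of_normal_right).1 hx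
        refine ⟨⟨a, ha⟩, ?_⟩
        show φ a = φ (a * b)
        rw [map_mul, (MonoidHom.mem_ker).1 hb, mul_one]
    have hKnil : Group.IsNilpotent φ.ker := by
      have h1 : Group.IsNilpotent (frattini H) := frattini_nilpotent
      exact Group.nilpotent_of_mulEquiv (subgroupOfEquivOfLe hfr)
    -- the quotient by the central subgroup `Z₀ ⊓ ker φ`
    set Z₁ : Subgroup H := Z₀ ⊓ φ.ker with hZ₁
    have hZ₁c : Z₁ ≤ center H := inf_le_left.trans hZ₀
    have hZ₁n : Z₁.Normal := ⟨fun z hz g => by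
      rw [mem_center_iff.1 (hZ₁c hz) g, mul_inv_cancel_right]
      exact hz⟩
    set π := QuotientGroup.mk' Z₁ with hπ
    have hπs : Function.Surjective π := QuotientGroup.mk'_surjective Z₁
    set K' : Subgroup (H ⧸ Z₁) := φ.ker.map π with hK'
    have hK'n : K'.Normal := Normal.map inferInstance π hπs
    have hK'nil : Group.IsNilpotent K' := by
      refine Group.nilpotent_of_surjective ((π.comp φ.ker.subtype).codRestrict K' fun x => ⟨x, x.2, rfl⟩) ?_
      rintro ⟨q, x, hx, rfl⟩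
      exact ⟨⟨x, hx⟩, rfl⟩
    have hπk₀ : π k₀ ≠ 1 := fun h' => hk₀Z ((QuotientGroup.eq_one_iff k₀).1 h').1
    obtain ⟨w₀, hw₀, hw₀1⟩ := exists_om K' hK'nil (p := p) (mem_map_of_mem π hk₀) hπk₀ (by
      obtain ⟨k, hk⟩ := hk₀p
      obtain ⟨j, -, hj⟩ := (Nat.dvd_prime_pow hp.out).1 (hk ▸ orderOf_map_dvd π k₀)
      exact ⟨j, hj⟩)
    -- the module
    have hVn : (Om K' p).Normal := om_normal K' p
    let : CommGroup (Om K' p) := omComm K' p
    let ρ : H →* AddMonoid.End (Additive (Om K' p)) :=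
      { toFun := fun x => MonoidHom.toAdditive ((MulAut.conjNormal (π x) : MulAut (Om K' p)).toMonoidHom)
        map_one' := by
          refine AddMonoidHom.ext fun a => ?_
          show Additive.ofMul ((MulAut.conjNormal (π 1) : MulAut (Om K' p)) a.toMul) = a
          rw [map_one, map_one]
          rfl
        map_mul' := fun x y => by
          refine AddMonoidHom.ext fun a => ?_
          show Additive.ofMul ((MulAut.conjNormal (π (x * y)) : MulAut (Om K' p)) a.toMul) =
            Additive.ofMul ((MulAut.conjNormal (π x) : MulAut (Om K' p))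
              ((MulAut.conjNormal (π y) : MulAut (Om K' p)) a.toMul))
          rw [map_mul, map_mul]
          rfl }
    have hρ : ∀ x a, ((ρ x a).toMul : H ⧸ Z₁) = π x * (a.toMul : H ⧸ Z₁) * (π x)⁻¹ := fun x a => rfl
    obtain ⟨a, ha, Y, hY, hfix⟩ := exists_fixed φ ρ (p := p) (A := Additive (Om K' p)) (fun x hx a => by
      apply Additive.toMul.injective
      apply Subtype.ext
      rw [hρ, a.toMul.2.2.1 _ (mem_map_of_mem π hx), mul_inv_cancel_right]) (fun a => by
      apply Additive.toMul.injective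
      apply Subtype.ext
      exact a.toMul.2.2.2) hmod (a₀ := Additive.ofMul ⟨w₀, hw₀⟩) (fun h' => hw₀1 (by
      have := congrArg (fun q : Additive (Om K' p) => (q.toMul : H ⧸ Z₁)) h'
      exact this))
    -- a lift of `p`-power order
    obtain ⟨v₀, hv₀⟩ := hπs (a.toMul : H ⧸ Z₁)
    have ha1 : (a.toMul : H ⧸ Z₁) ≠ 1 := fun h' => ha (by
      apply Additive.toMul.injective
      exact Subtype.ext h')
    obtain ⟨j, hj1, hj2⟩ := exists_pow_lift π hp.out v₀ (by rw [hv₀]; exact a.toMul.2.2.2)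
    rw [hv₀] at hj1
    have hker : v₀ ^ j ∈ φ.ker := by
      obtain ⟨x, hx, hx'⟩ := a.toMul.2.1
      have h1 : π (x⁻¹ * v₀ ^ j) = 1 := by rw [map_mul, map_inv, hj1, hx', inv_mul_cancel]
      have h2 : x⁻¹ * v₀ ^ j ∈ Z₁ := (QuotientGroup.eq_one_iff _).1 h1
      have h3 := φ.ker.mul_mem hx h2.2
      rwa [mul_inv_cancel_left] at h3
    have hvZ : v₀ ^ j ∉ Z₀ := fun h' => ha1 (by
      rw [← hj1]
      exact (QuotientGroup.eq_one_iff _).2 ⟨h', hker⟩)
    refine not_solvable_of_central (Y.comap φ) (fun hs => hY ?_) (v₀ ^ j) (fun d hd => ?_) (h _ hj2 hvZ)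
    · refine Group.isSolvable_of_surjective (f := (φ.comp (Y.comap φ).subtype).codRestrict Y fun x => x.2) ?_
      rintro ⟨y, hy⟩
      obtain ⟨x, rfl⟩ := hφ y
      exact ⟨⟨x, hy⟩, rfl⟩
    · apply hZ₁c
      apply (QuotientGroup.eq_one_iff _).1
      show π (v₀ ^ j * d * (v₀ ^ j)⁻¹ * d⁻¹) = 1
      have h1 := congrArg (fun q : Additive (Om K' p) => (q.toMul : H ⧸ Z₁)) (hfix d hd)
      simp only [hρ] at h1
      rw [map_mul, map_mul, map_mul, map_inv, map_inv, hj1]
      rw [mul_inv_eq_iff_eq_mul] at h1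
      rw [← h1]
      group

end Cfsg.Agent.H196.AltMain
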