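import Mathlib
import Cfsg.Agent.H176.SymmCharTwo
import Cfsg.Agent.H177.InvolOrth
import Cfsg.Agent.LieClassical.SympCount

/-!
# Orders of isometry groups of non-degenerate symmetric bilinear forms in characteristic two
-/

set_option autoImplicit false
set_option linter.unusedSectionVars false

namespace Cfsg.Agent.H196.SymForm

open Module

universe v

variable {F : Type*} [Field F]

section General

variable {V : Type*} [AddCommGroup V] [Module F V] [FiniteDimensional F V]

/-- Isometries correspond to families with the Gram matrix of a basis. -/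
theorem card_iso_eq {κ : Type*} (γ : LinearMap.BilinForm F V) (hγ : γ.Nondegenerate)
    (b : Basis κ F V) :
    Nat.card {φ : V ≃ₗ[F] V // ∀ x y, γ (φ x) (φ y) = γ x y}
      = Nat.card {w : κ → V // ∀ i j, γ (w i) (w j) = γ (b i) (b j)} := by
  refine Nat.card_eq_of_bijective (fun φ => ⟨fun i => φ.1 (b i), fun i j => φ.2 _ _⟩) ⟨?_, ?_⟩
  · intro φ ψ h
    apply Subtype.ext
    apply b.ext'
    intro i
    exact congrFun (congrArg Subtype.val h) i
  · rintro ⟨w, hw⟩
    let T : V →ₗ[F] V := b.constr F w
    have hT : ∀ i, T (b i) = w i := fun i => b.constr_basis F w i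
    have key : γ.compl₁₂ T T = γ := by
      refine LinearMap.BilinForm.ext_basis b fun i j => ?_
      rw [LinearMap.compl₁₂_apply, hT, hT, hw]
    have hiso : ∀ x y, γ (T x) (T y) = γ x y := fun x y => by
      conv_rhs => rw [← key]
      rfl
    have hinj : Function.Injective T := by
      rw [← LinearMap.ker_eq_bot, LinearMap.ker_eq_bot']
      intro x hx
      apply hγ.1
      intro y
      rw [← hiso, hx, map_zero, LinearMap.zero_apply]
    refine ⟨⟨LinearEquiv.ofInjectiveEndo T hinj, fun x y => ?_⟩, ?_⟩
    · exact hiso x y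
    · apply Subtype.ext
      funext i
      exact hT i

end General

/-- orthonormal tuples -/
abbrev ON {V : Type*} [AddCommGroup V] [Module F V] (γ : LinearMap.BilinForm F V) (n : ℕ) : Type _ :=
  {w : Fin n → V // ∀ i j, γ (w i) (w j) = if i = j then 1 else 0}

section Split

variable {V : Type*} [AddCommGroup V] [Module F V] (γ : LinearMap.BilinForm F V)

/-- splitting off the first vector -/
def splitON (hS : γ.IsSymm) (n : ℕ) :
    ON γ (n + 1) ≃ Σ v : {v : V // γ v v = 1}, ON (γ.restrict (γ.orthogonal (F ∙ v.1))) n where
  toFun w := ⟨⟨w.1 0, by rw [w.2, if_pos rfl]⟩,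
    ⟨fun i => ⟨w.1 i.succ, by
      intro y hy
      obtain ⟨c, rfl⟩ := Submodule.mem_span_singleton.1 hy
      change γ (c • w.1 0) (w.1 i.succ) = 0
      rw [map_smul, LinearMap.smul_apply, w.2, if_neg (Fin.succ_ne_zero i).symm, smul_zero]⟩,
    fun i j => by
      change γ (w.1 i.succ) (w.1 j.succ) = _
      rw [w.2]
      simp [Fin.succ_inj]⟩⟩
  invFun p := ⟨Fin.cons p.1.1 fun i => (p.2.1 i : V), by
    have h1 : ∀ i, γ p.1.1 (p.2.1 i) = 0 := fun i =>
      (p.2.1 i).2 _ (Submodule.mem_span_singleton_self _)
    intro i j
    refine Fin.cases ?_ (fun i => ?_) i <;> refine Fin.cases ?_ (fun j => ?_) j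
    · simp [p.1.2]
    · rw [if_neg (Fin.succ_ne_zero j).symm]
      simpa using h1 j
    · rw [if_neg (Fin.succ_ne_zero i)]
      have := h1 i
      rw [← hS.eq] at this
      simpa using this
    · have := p.2.2 i j
      change γ (p.2.1 i) (p.2.1 j) = _ at this
      simp only [Fin.cons_succ, Fin.succ_inj]
      exact this⟩
  left_inv w := by
    apply Subtype.ext
    funext i
    refine Fin.cases ?_ (fun i => ?_) i <;> simp
  right_inv p := by
    obtain ⟨⟨v, hv⟩, ⟨f, hf⟩⟩ := p
    rfl

end Split

/-- the number of orthonormal bases -/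
def cON (q : ℕ) : ℕ → ℕ
  | 0 => 1
  | 1 => 1
  | (n + 2) => (if Even n then q ^ (n + 1) else q ^ (n + 1) - 1) * cON q (n + 1)

theorem sum_sq {κ : Type*} [CharP F 2] (s : Finset κ) (c : κ → F) :
    (∑ i ∈ s, c i) * (∑ i ∈ s, c i) = ∑ i ∈ s, c i * c i := by
  have h := sum_pow_char (R := F) 2 (s := s) (f := c)
  simpa only [pow_two] using h

section E

variable {V : Type*} [AddCommGroup V] [Module F V] [FiniteDimensional F V] [CharP F 2]
variable (γ : LinearMap.BilinForm F V)

theorem exists_e {n : ℕ} (b : Basis (Fin n) F V) (hb : ∀ i j, γ (b i) (b j) = if i = j then 1 else 0) :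
    ∃ e : V, γ e e = (n : F) ∧ ∀ v, γ v v = γ v e * γ v e := by
  have hbl : ∀ (c : Fin n → F) (j : Fin n), γ (∑ i, c i • b i) (b j) = c j := by
    intro c j
    rw [map_sum, LinearMap.sum_apply]
    simp only [map_smul, LinearMap.smul_apply, hb, smul_eq_mul, mul_ite, mul_one, mul_zero]
    rw [Finset.sum_ite_eq']
    simp
  refine ⟨∑ i, b i, ?_, ?_⟩
  · have h1 : ∀ j, γ (∑ i, b i) (b j) = 1 := by
      intro j
      have := hbl (fun _ => 1) j
      simpa using this
    rw [map_sum, Finset.sum_congr rfl fun j _ => h1 j, Finset.sum_const, Finset.card_univ,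
      Fintype.card_fin, nsmul_eq_mul, mul_one]
  · intro v
    obtain ⟨c, rfl⟩ : ∃ c : Fin n → F, v = ∑ i, c i • b i := ⟨_, (b.sum_repr v).symm⟩
    have h1 : γ (∑ i, c i • b i) (∑ i, b i) = ∑ i, c i := by
      rw [map_sum]
      exact Finset.sum_congr rfl fun j _ => hbl c j
    have h2 : γ (∑ i, c i • b i) (∑ i, c i • b i) = ∑ i, c i * c i := by
      rw [map_sum]
      exact Finset.sum_congr rfl fun j _ => by rw [map_smul, hbl, smul_eq_mul]
    rw [h1, h2, sum_sq]

end E

/-- **The number of orthonormal bases** of a non-degenerate non-alternating symmetric bilinear form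
over a finite field of characteristic two. -/
theorem card_ON [Fintype F] [CharP F 2] (n : ℕ) : ∀ (V : Type v) [AddCommGroup V] [Module F V]
    [FiniteDimensional F V] (γ : LinearMap.BilinForm F V), γ.IsSymm → γ.Nondegenerate →
    finrank F V = n → (∃ v, γ v v ≠ 0) → Nat.card (ON γ n) = cON (Fintype.card F) n := by
  classical
  induction n with
  | zero =>
    intro V _ _ _ γ hS hγ hn hna
    have : Unique (ON γ 0) :=
      { default := ⟨fun i => i.elim0, fun i => i.elim0⟩
        uniq := fun p => Subtype.ext (funext fun i => i.elim0) }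
    rw [Nat.card_unique]
    rfl
  | succ n ih =>
    intro V _ _ _ γ hS hγ hn hna
    have hsym : ∀ x y, γ x y = γ y x := fun x y => by rw [← hS.eq]
    obtain ⟨b, hb⟩ := Cfsg.Agent.H176.SymmCharTwo.exists_orthonormal_basis
      Cfsg.Agent.H176.SymmCharTwo.exists_sq hn γ hS hγ hna
    obtain ⟨e, hee, he⟩ := exists_e γ b hb
    have he0 : e ≠ 0 := by
      rintro rfl
      obtain ⟨v, hv⟩ := hna
      apply hv
      rw [he, map_zero, mul_zero]
    have hVf : Finite V := Module.finite_of_finite F
    have : Fintype V := Fintype.ofFinite V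
    -- the vectors of norm one
    have hnorm : ∀ v, γ v v = 1 ↔ γ e v = 1 := by
      intro v
      rw [he, hsym e v]
      constructor
      · intro h
        have h1 : (γ v e + 1) * (γ v e + 1) = 0 := by
          have h2 : (2 : F) = 0 := CharTwo.two_eq_zero
          linear_combination h + (γ v e + 1) * h2
        have h3 := mul_self_eq_zero.1 h1
        exact CharTwo.add_eq_zero.1 h3
      · intro h
        rw [h, mul_one]
    have hcard : Nat.card {v : V // γ v v = 1} = Fintype.card F ^ n := by
      have h1 : γ e ≠ 0 := by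
        intro h
        apply he0
        apply hγ.1
        intro y
        rw [h]; rfl
      have h2 := Cfsg.Agent.LieClassical.SympCount.card_fiber h1 1
      rw [hn, Nat.add_sub_cancel] at h2
      rw [← h2]
      exact Nat.card_congr (Equiv.subtypeEquivRight fun v => hnorm v)
    have hfin : ∀ v : V, v ≠ 0 → finrank F (γ.orthogonal (F ∙ v)) = n := by
      intro v hv
      rw [LinearMap.BilinForm.finrank_orthogonal hγ, finrank_span_singleton hv, hn]
      rfl
    have hperp : ∀ v x : V, x ∈ γ.orthogonal (F ∙ v) ↔ γ v x = 0 := by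
      intro v x
      constructor
      · intro h
        exact h v (Submodule.mem_span_singleton_self v)
      · intro h y hy
        obtain ⟨c, rfl⟩ := Submodule.mem_span_singleton.1 hy
        change γ (c • v) x = 0
        rw [map_smul, LinearMap.smul_apply, h, smul_zero]
    -- the complement of a vector of norm one is alternating only for `e`
    have hgood : ∀ v : V, γ v v = 1 → (∀ x, γ v x = 0 → γ x x = 0) → v = e := by
      intro v hv hx
      have h1 : γ.orthogonal (F ∙ v) ≤ γ.orthogonal (F ∙ e) := by
        intro x hx'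
        rw [hperp] at hx' ⊢
        have h2 := hx x hx'
        rw [he] at h2
        rw [hsym]
        exact mul_self_eq_zero.1 h2
      have hv0 : v ≠ 0 := by
        rintro rfl
        simp at hv
      have h2 : γ.orthogonal (F ∙ v) = γ.orthogonal (F ∙ e) :=
        Submodule.eq_of_le_of_finrank_eq h1 (by rw [hfin v hv0, hfin e he0])
      have h3 : F ∙ v = F ∙ e := by
        rw [← LinearMap.BilinForm.orthogonal_orthogonal hγ hS.isRefl (F ∙ v), h2,
          LinearMap.BilinForm.orthogonal_orthogonal hγ hS.isRefl]
      have h4 : e ∈ F ∙ v := by rw [h3]; exact Submodule.mem_span_singleton_self e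
      obtain ⟨c, hc⟩ := Submodule.mem_span_singleton.1 h4
      have h5 := (hnorm v).1 hv
      rw [← hc, map_smul, LinearMap.smul_apply, hv, smul_eq_mul, mul_one] at h5
      rw [← hc, h5, one_smul]
    have : Fintype {v : V // γ v v = 1} := Fintype.ofFinite _
    have : ∀ v : {v : V // γ v v = 1},
        Finite (ON (γ.restrict (γ.orthogonal (F ∙ v.1))) n) := fun v =>
      inferInstanceAs (Finite {w : Fin n → _ // _})
    rw [Nat.card_congr (splitON γ hS n), Nat.card_sigma]
    obtain _ | n := n
    · -- dimension one
      have h1 : ∀ v : {v : V // γ v v = 1}, Nat.card (ON (γ.restrict (γ.orthogonal (F ∙ v.1))) 0) = 1 := by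
        intro v
        have : Unique (ON (γ.restrict (γ.orthogonal (F ∙ v.1))) 0) :=
          { default := ⟨fun i => i.elim0, fun i => i.elim0⟩
            uniq := fun p => Subtype.ext (funext fun i => i.elim0) }
        exact Nat.card_unique
      rw [Finset.sum_congr rfl fun v _ => h1 v, Finset.sum_const, Finset.card_univ,
        ← Nat.card_eq_fintype_card, hcard]
      rfl
    · have hstep : ∀ v : {v : V // γ v v = 1}, v.1 ≠ e ∨ γ e e ≠ 1 →
          Nat.card (ON (γ.restrict (γ.orthogonal (F ∙ v.1))) (n + 1))
            = cON (Fintype.card F) (n + 1) := by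
        rintro ⟨v, hv⟩ hve
        have hv0 : γ v v ≠ 0 := by rw [hv]; exact one_ne_zero
        have hv00 : v ≠ 0 := by
          rintro rfl
          simp at hv
        refine ih _ _ (hS.restrict _)
          (LinearMap.BilinForm.restrict_nondegenerate_orthogonal_spanSingleton γ hγ hS.isRefl hv0)
          (hfin v hv00) ?_
        by_contra hcon
        push Not at hcon
        have h1 := hgood v hv fun x hx => hcon ⟨x, (hperp v x).2 hx⟩
        rcases hve with h2 | h2
        · exact h2 h1
        · exact h2 (by rw [← h1]; exact hv)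
      by_cases hodd : Even n
      · -- even dimension
        have hee' : γ e e ≠ 1 := by
          rw [hee]
          have : ((n + 1 + 1 : ℕ) : F) = 0 := by
            rw [CharP.cast_eq_zero_iff F 2]
            obtain ⟨k, rfl⟩ := hodd
            exact ⟨k + 1, by ring⟩
          rw [this]
          exact zero_ne_one
        rw [Finset.sum_congr rfl fun v _ => hstep v (Or.inr hee'), Finset.sum_const,
          Finset.card_univ, ← Nat.card_eq_fintype_card, hcard, smul_eq_mul, cON, if_pos hodd]
      · have hee' : γ e e = 1 := by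
          rw [hee]
          have : ((n + 1 + 1 : ℕ) : F) = (n : F) := by
            push_cast
            have h2 : (2 : F) = 0 := CharTwo.two_eq_zero
            linear_combination h2
          rw [this]
          rw [Nat.not_even_iff_odd] at hodd
          obtain ⟨k, rfl⟩ := hodd
          push_cast
          have h2 : (2 : F) = 0 := CharTwo.two_eq_zero
          rw [h2]
          ring
        have hbad : Nat.card (ON (γ.restrict (γ.orthogonal (F ∙ e))) (n + 1)) = 0 := by
          rw [Nat.card_eq_zero]
          left
          refine ⟨fun w => ?_⟩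
          have h1 := w.2 0 0
          rw [if_pos rfl] at h1
          have h2 : γ (w.1 0 : V) (w.1 0) = 1 := h1
          have h3 := (hperp e (w.1 0)).1 (w.1 0).2
          rw [he, hsym, h3, mul_zero] at h2
          exact zero_ne_one h2
        rw [← Finset.add_sum_erase _ _ (Finset.mem_univ (⟨e, hee'⟩ : {v : V // γ v v = 1})), hbad,
          zero_add, Finset.sum_congr rfl fun v hv => hstep v (Or.inl fun h =>
            Finset.ne_of_mem_erase hv (Subtype.ext h)), Finset.sum_const,
          Finset.card_erase_of_mem (Finset.mem_univ _), Finset.card_univ,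
          ← Nat.card_eq_fintype_card, hcard, smul_eq_mul, cON, if_neg hodd]

end Cfsg.Agent.H196.SymForm
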