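import Mathlib
import Cfsg.Agent.H196.SymForm

/-!
# Orders of isometry groups of non-degenerate symmetric bilinear forms in characteristic two

* `card_iso_alt`: alternating: `|Sp_2r(q)|`;
* `card_iso_odd`: not alternating, odd dimension `2k+1`: `|Sp_2k(q)|`;
* `card_iso_even`: not alternating, even dimension `2k+2`: `q^(2k+1) |Sp_2k(q)|`.
-/

set_option autoImplicit false
set_option linter.unusedSectionVars false

namespace Cfsg.Agent.H196.SymForm

open Module Cfsg.Agent.LieClassical.SympCount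

universe v

variable {F : Type*} [Field F]

/-- the order of the symplectic group -/
def cSp (q r : ℕ) : ℕ := q ^ (r ^ 2) * ∏ i ∈ Finset.range r, (q ^ (2 * (i + 1)) - 1)

theorem cON_odd (q k : ℕ) : cON q (2 * k + 1) = cSp q k := by
  induction k with
  | zero => simp [cON, cSp]
  | succ k ih =>
    have h1 : 2 * (k + 1) + 1 = (2 * k + 1) + 2 := by ring
    have h2 : (2 * k + 1) + 1 = (2 * k) + 2 := by ring
    have h3 : ¬ Even (2 * k + 1) := by
      rw [Nat.not_even_iff_odd]; exact ⟨k, rfl⟩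
    have h4 : Even (2 * k) := even_two_mul k
    rw [h1, cON, if_neg h3, h2, cON, if_pos h4, ih, cSp, cSp, Finset.prod_range_succ]
    have h5 : (k + 1) ^ 2 = (2 * k + 1) + k ^ 2 := by ring
    have h6 : 2 * (k + 1) = 2 * k + 2 := by ring
    rw [h5, pow_add q (2 * k + 1), h6]
    ring

theorem cON_even (q k : ℕ) : cON q (2 * k + 2) = q ^ (2 * k + 1) * cSp q k := by
  rw [cON, if_pos (even_two_mul k), cON_odd]

variable {V : Type v} [AddCommGroup V] [Module F V] [FiniteDimensional F V]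

theorem card_iso_nonalt [Fintype F] [CharP F 2] (γ : LinearMap.BilinForm F V) (hS : γ.IsSymm)
    (hγ : γ.Nondegenerate) (hna : ∃ v, γ v v ≠ 0) {n : ℕ} (hn : finrank F V = n) :
    Nat.card {φ : V ≃ₗ[F] V // ∀ x y, γ (φ x) (φ y) = γ x y} = cON (Fintype.card F) n := by
  obtain ⟨b, hb⟩ := Cfsg.Agent.H176.SymmCharTwo.exists_orthonormal_basis
      Cfsg.Agent.H176.SymmCharTwo.exists_sq hn γ hS hγ hna
  rw [card_iso_eq γ hγ b, ← card_ON n V γ hS hγ hn hna]
  exact Nat.card_congr (Equiv.subtypeEquivRight fun w => forall₂_congr fun i j => by rw [hb])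

/-- Not alternating, odd dimension. -/
theorem card_iso_odd [Fintype F] [CharP F 2] (γ : LinearMap.BilinForm F V) (hS : γ.IsSymm)
    (hγ : γ.Nondegenerate) (hna : ∃ v, γ v v ≠ 0) {k : ℕ} (hn : finrank F V = 2 * k + 1) :
    Nat.card {φ : V ≃ₗ[F] V // ∀ x y, γ (φ x) (φ y) = γ x y} = cSp (Fintype.card F) k := by
  rw [card_iso_nonalt γ hS hγ hna hn, cON_odd]

/-- Not alternating, even dimension. -/
theorem card_iso_even [Fintype F] [CharP F 2] (γ : LinearMap.BilinForm F V) (hS : γ.IsSymm)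
    (hγ : γ.Nondegenerate) (hna : ∃ v, γ v v ≠ 0) {k : ℕ} (hn : finrank F V = 2 * k + 2) :
    Nat.card {φ : V ≃ₗ[F] V // ∀ x y, γ (φ x) (φ y) = γ x y}
      = Fintype.card F ^ (2 * k + 1) * cSp (Fintype.card F) k := by
  rw [card_iso_nonalt γ hS hγ hna hn, cON_even]

theorem prod_eq_cSp (q r : ℕ) :
    ∏ i ∈ Finset.range r, ((q ^ (2 * (i + 1)) - 1) * q ^ (2 * i + 1)) = cSp q r := by
  rw [cSp]
  induction r with
  | zero => simp
  | succ r ih =>
    rw [Finset.prod_range_succ, ih, Finset.prod_range_succ]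
    have h5 : (r + 1) ^ 2 = (2 * r + 1) + r ^ 2 := by ring
    rw [h5, pow_add q (2 * r + 1)]
    ring

/-- Alternating forms. -/
theorem card_iso_alt [Fintype F] (γ : LinearMap.BilinForm F V) (hA : γ.IsAlt)
    (hγ : γ.Nondegenerate) {r : ℕ} (hn : finrank F V = 2 * r) :
    Nat.card {φ : V ≃ₗ[F] V // ∀ x y, γ (φ x) (φ y) = γ x y} = cSp (Fintype.card F) r := by
  obtain ⟨m, b, hm, h1, h2, h3, h4⟩ := Cfsg.Agent.H177.InvolOrth.exists_symplectic_basis γ hA hγ
  obtain rfl : m = r := by omega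
  rw [card_iso_eq γ hγ b, ← prod_eq_cSp, ← card_hypTuple m V γ hA hγ.1 hn]
  have hneg : ∀ x y, γ x y = - γ y x := fun x y => (hA.neg_eq y x).symm
  refine Nat.card_congr
    { toFun := fun w => ⟨fun i => (w.1 (Sum.inl i), w.1 (Sum.inr i)), fun i j => ⟨?_, ?_, ?_⟩⟩
      invFun := fun p => ⟨Sum.elim (fun i => (p.1 i).1) (fun i => (p.1 i).2), ?_⟩
      left_inv := fun w => ?_
      right_inv := fun p => rfl }
  · rw [w.2, h3]
  · rw [w.2, h4]
  · rw [w.2, h1]
  · rintro (i | i) (j | j)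
    · rw [h3]; exact (p.2 i j).1
    · rw [h1]; exact (p.2 i j).2.2
    · rw [h2]
      change γ (p.1 i).2 (p.1 j).1 = _
      rw [hneg, (p.2 j i).2.2]
      by_cases hij : i = j
      · subst hij; simp
      · rw [if_neg hij, if_neg (Ne.symm hij), neg_zero]
    · rw [h4]; exact (p.2 i j).2.1
  · apply Subtype.ext
    funext i
    rcases i with i | i <;> rfl

end Cfsg.Agent.H196.SymForm
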